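import Cfsg.Agent.PermutationGroups.AutSL25

/-!
# Finite facts on `SL(2,5)` (helper312, S3540)
-/

set_option autoImplicit false

namespace Cfsg.Agent.H312.HT.F

open Cfsg.Agent.PermutationGroups.AutSL25 Matrix

/-- the element `b` of order three with `S * b = T` -/
def B : SL25 := S * S * S * T

theorem B3 : B * B * B = 1 := by decide +kernel
theorem Bne : B ≠ 1 := by decide +kernel
theorem SB : S * B = T := by decide +kernel

theorem fixT : ∀ s : SL25, s * s = -1 → (s * T) * (s * T) * (s * T) = -1 →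
    ∃ k : Fin 5, s = T ^ (k : ℕ) * S * (T ^ (k : ℕ))⁻¹ := by decide +kernel

/-- representatives for the conjugating elements: elements of order five -/
theorem five_conj : ∀ t : SL25, t * t * t * t * t = 1 → t ≠ 1 →
    (∃ w : SL25, t = w * T * w⁻¹) ∨ ∃ w : SL25, t = w * (T * T) * w⁻¹ := by decide +kernel

theorem not_conj : ∀ w : SL25, w * T * w⁻¹ ≠ T * T := by decide +kernel

theorem orders : ∀ x : SL25, x ≠ 1 → x ≠ -1 →
    x * x = -1 ∨ x * x * x = 1 ∨ x * x * x = -1 ∨ x * x * x * x * x = 1 ∨ x * x * x * x * x = -1 := by decide +kernel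

theorem card_four : Fintype.card {x : SL25 // x * x = -1} = 30 := by decide +kernel
theorem card_three : Fintype.card {x : SL25 // x * x * x = 1 ∧ x ≠ 1} = 20 := by decide +kernel
theorem card_three' : Fintype.card {x : SL25 // x * x * x = -1 ∧ x ≠ -1} = 20 := by decide +kernel
theorem card_five : Fintype.card {x : SL25 // x * x * x * x * x = 1 ∧ x ≠ 1} = 24 := by decide +kernel
theorem card_five' : Fintype.card {x : SL25 // x * x * x * x * x = -1 ∧ x ≠ -1} = 24 := by decide +kernel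

theorem four_inv : ∀ x : SL25, x * x = -1 → ∃ w : SL25, w * x * w⁻¹ = x⁻¹ := by decide +kernel

/-! ### inner automorphisms -/

/-- an automorphism which maps `T` to a conjugate of `T` is inner -/
theorem inner_of_conj (ψ : SL25 →* SL25) (h1 : ψ (-1) = -1) {w : SL25} (hw : ψ T = w * T * w⁻¹) :
    ∃ u : SL25, ∀ x, ψ x = u * x * u⁻¹ := by
  have hs : (w⁻¹ * ψ S * w) * (w⁻¹ * ψ S * w) = -1 := by
    have h2 : ψ S * ψ S = -1 := by rw [← map_mul, relS, h1]
    calc (w⁻¹ * ψ S * w) * (w⁻¹ * ψ S * w) = w⁻¹ * (ψ S * ψ S) * w := by group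
      _ = -1 := by rw [h2]; simp
  have hst : ((w⁻¹ * ψ S * w) * T) * ((w⁻¹ * ψ S * w) * T) * ((w⁻¹ * ψ S * w) * T) = -1 := by
    have h2 : (ψ S * ψ T) * (ψ S * ψ T) * (ψ S * ψ T) = -1 := by
      rw [← map_mul, ← map_mul, ← map_mul, relST, h1]
    have h3 : (w⁻¹ * ψ S * w) * T = w⁻¹ * (ψ S * ψ T) * w := by rw [hw]; group
    rw [h3]
    calc w⁻¹ * (ψ S * ψ T) * w * (w⁻¹ * (ψ S * ψ T) * w) * (w⁻¹ * (ψ S * ψ T) * w) =
        w⁻¹ * ((ψ S * ψ T) * (ψ S * ψ T) * (ψ S * ψ T)) * w := by group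
      _ = -1 := by rw [h2]; simp
  obtain ⟨k, hk⟩ := fixT _ hs hst
  refine ⟨w * T ^ (k : ℕ), fun x => ?_⟩
  have h3 : ψ = (MulAut.conj (w * T ^ (k : ℕ)) : SL25 →* SL25) := by
    apply MonoidHom.eq_of_eqOn_dense closure_eq_top
    rintro y (rfl | hy)
    · change ψ S = w * T ^ (k : ℕ) * S * (w * T ^ (k : ℕ))⁻¹
      calc ψ S = w * (w⁻¹ * ψ S * w) * w⁻¹ := by group
        _ = w * (T ^ (k : ℕ) * S * (T ^ (k : ℕ))⁻¹) * w⁻¹ := by rw [← hk]
        _ = _ := by group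
    · rw [Set.mem_singleton_iff] at hy
      subst hy
      change ψ T = w * T ^ (k : ℕ) * T * (w * T ^ (k : ℕ))⁻¹
      rw [hw]
      group
  rw [h3]
  rfl

/-! ### an outer automorphism -/

/-- conjugation by `diag (1, 2)` -/
def phi0 (x : SL25) : SL25 :=
  ⟨!![x 0 0, 3 * x 0 1; 2 * x 1 0, x 1 1], by
    have h1 : x 0 0 * x 1 1 - x 0 1 * x 1 0 = 1 := by
      rw [← Matrix.det_fin_two]
      exact x.2
    rw [Matrix.det_fin_two_of]
    have h6 : (6 : ZMod 5) = 1 := by decide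
    linear_combination h1 - (x 0 1 * x 1 0) * h6⟩

theorem phi0_mul (x y : SL25) : phi0 (x * y) = phi0 x * phi0 y := by
  apply Subtype.ext
  rw [Matrix.SpecialLinearGroup.coe_mul]
  have h6 : (6 : ZMod 5) = 1 := by decide
  ext i j
  fin_cases i <;> fin_cases j <;>
    simp [phi0, Matrix.SpecialLinearGroup.coe_mul, Matrix.mul_apply, Fin.sum_univ_two]
  · linear_combination -(x 0 1 * y 1 0) * h6
  · ring
  · ring
  · linear_combination -(x 1 0 * y 0 1) * h6

def Phi0 : SL25 →* SL25 where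
  toFun := phi0
  map_one' := by decide +kernel
  map_mul' := phi0_mul

/-- `phi0` is an automorphism whose square is conjugation by `D0` -/
def D0 : SL25 := ⟨!![2, 0; 0, 3], by decide⟩

theorem phi0_phi0 : ∀ x : SL25, phi0 (phi0 x) = D0 * x * D0⁻¹ := by decide +kernel

theorem phi0_T : phi0 T = T * T * T := by decide +kernel

theorem conj_T3 : ∃ w : SL25, T * T * T = w * (T * T) * w⁻¹ := by decide +kernel

theorem phi0_T2 : ∃ w : SL25, phi0 (T * T) = w * T * w⁻¹ := by decide +kernel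

theorem phi0_neg : phi0 (-1) = -1 := by decide +kernel

/-- the elements `w` such that conjugation by `w` after `phi0` is an involution -/
theorem card_W : Fintype.card {w : SL25 // w * phi0 w * D0 = 1 ∨ w * phi0 w * D0 = -1} = 20 := by decide +kernel

theorem W_inv : ∀ w : SL25, (w * phi0 w * D0 = 1 ∨ w * phi0 w * D0 = -1) →
    Fintype.card {x : SL25 // w * phi0 x * w⁻¹ * x = 1} = 20 ∧ ∀ x : SL25, w * phi0 x * w⁻¹ * x ≠ -1 := by
  decide +kernel

/-- automorphisms which are not inner -/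
theorem outer_eq (ψ : SL25 →* SL25) (h1 : ψ (-1) = -1) (hT : ψ T ≠ 1) (hn : ¬ ∃ u : SL25, ∀ x, ψ x = u * x * u⁻¹) :
    ∃ w : SL25, ∀ x, ψ x = w * phi0 x * w⁻¹ := by
  have h5 : ψ T * ψ T * ψ T * ψ T * ψ T = 1 := by
    rw [← map_mul, ← map_mul, ← map_mul, ← map_mul, relT, map_one]
  rcases five_conj (ψ T) h5 hT with ⟨w, hw⟩ | ⟨w, hw⟩
  · exact absurd (inner_of_conj ψ h1 hw) hn
  · obtain ⟨w1, hw1⟩ := phi0_T2
    obtain ⟨u, hu⟩ := inner_of_conj (Phi0.comp ψ) (by
        change phi0 (ψ (-1)) = -1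
        rw [h1, phi0_neg]) (w := phi0 w * w1) (by
        change phi0 (ψ T) = _
        have hinv : phi0 w⁻¹ = (phi0 w)⁻¹ := map_inv Phi0 w
        rw [hw, phi0_mul, phi0_mul, hw1, hinv]
        group)
    refine ⟨D0⁻¹ * phi0 u, fun x => ?_⟩
    have h2 : phi0 (ψ x) = u * x * u⁻¹ := hu x
    have h3 := phi0_phi0 (ψ x)
    have hinv : phi0 u⁻¹ = (phi0 u)⁻¹ := map_inv Phi0 u
    rw [h2, phi0_mul, phi0_mul, hinv] at h3
    have h4 : ψ x = D0⁻¹ * (D0 * ψ x * D0⁻¹) * D0 := by group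
    rw [h4, ← h3]
    group

theorem outer_invol {ψ : SL25 →* SL25} {w : SL25} (hw : ∀ x, ψ x = w * phi0 x * w⁻¹) (h2 : ∀ x, ψ (ψ x) = x) :
    w * phi0 w * D0 = 1 ∨ w * phi0 w * D0 = -1 := by
  have hinv : ∀ u, phi0 u⁻¹ = (phi0 u)⁻¹ := fun u => map_inv Phi0 u
  have key : ∀ x, (w * phi0 w * D0) * x = x * (w * phi0 w * D0) := by
    intro x
    have h3 := h2 x
    rw [hw, hw x, phi0_mul, phi0_mul, phi0_phi0, hinv] at h3
    calc (w * phi0 w * D0) * x = (w * (phi0 w * (D0 * x * D0⁻¹) * (phi0 w)⁻¹) * w⁻¹) * (w * phi0 w * D0) := by group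
      _ = _ := by rw [h3]
  exact mem_center_iff _ ⟨key S, key T⟩

end Cfsg.Agent.H312.HT.F
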