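import Cfsg.Agent.H312.HT.Def
import Cfsg.Agent.H312.HT.Fin

/-!
# `SL(2,5)` acting through `SL₂(K)`: basic consequences (helper312, S3540)
-/

set_option autoImplicit false

namespace Cfsg.Agent.H312.HT

open Cfsg.Agent.H828.HT Cfsg.Agent.PermutationGroups.AutSL25 Matrix

universe u v

/-! ### modules over `M₂(K)` -/

section mods

variable {K : Type v} [Field K] {V : Type u} [AddCommGroup V] [Module (Matrix (Fin 2) (Fin 2) K) V]

/-- matrix units -/
abbrev eu (i k : Fin 2) : Matrix (Fin 2) (Fin 2) K := Matrix.single i k 1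

theorem eu_add (v : V) : (eu 0 0 : Matrix (Fin 2) (Fin 2) K) • v + (eu 1 1 : Matrix (Fin 2) (Fin 2) K) • v = v := by
  rw [← add_smul]
  have h : (eu 0 0 : Matrix (Fin 2) (Fin 2) K) + eu 1 1 = 1 := by
    ext i k
    fin_cases i <;> fin_cases k <;> simp [Matrix.single]
  rw [h, one_smul]

theorem faithful (hV : ∃ v : V, v ≠ 0) {M : Matrix (Fin 2) (Fin 2) K} (hM : ∀ v : V, M • v = 0) : M = 0 := by
  by_contra hne
  obtain ⟨i, k, hik⟩ : ∃ i k, M i k ≠ 0 := by
    by_contra hcon
    push Not at hcon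
    exact hne (Matrix.ext hcon)
  obtain ⟨v, hv⟩ := hV
  apply hv
  have key : ∀ a : Fin 2, (eu a a : Matrix (Fin 2) (Fin 2) K) • v = 0 := by
    intro a
    have h1 : (eu a a : Matrix (Fin 2) (Fin 2) K) = (M i k)⁻¹ • (Matrix.single a i 1 * M * Matrix.single k a 1) := by
      rw [Matrix.single_mul_mul_single, one_mul, mul_one, Matrix.smul_single, smul_eq_mul, inv_mul_cancel₀ hik]
    have h2 : (M i k)⁻¹ • (Matrix.single a i 1 * M * Matrix.single k a (1 : K)) =
        (Matrix.single a i (M i k)⁻¹) * (M * Matrix.single k a 1) := by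
      rw [mul_assoc, ← Matrix.smul_mul, Matrix.smul_single, smul_eq_mul, mul_one]
    rw [h1, h2, mul_smul, mul_smul, hM, smul_zero]
  rw [← eu_add (K := K) v, key 0, key 1, add_zero]

end mods

section setup

variable {p : ℕ} [Fact p.Prime] {V : Type u} [AddCommGroup V] [Module (ZMod p) V]
  {G : Subgroup (V ≃ₗ[ZMod p] V)} {K : Type v} [Field K] [Module (Matrix (Fin 2) (Fin 2) K) V]
  {j : SL25 →* Matrix.SpecialLinearGroup (Fin 2) K} {l : SL25 →* (V ≃ₗ[ZMod p] V)}

theorem mem_AA {α : V ≃ₗ[ZMod p] V} : α ∈ AA G l ↔ α ∈ G ∧ ∀ x, l x * α = α * l x := by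
  rw [AA, Subgroup.mem_inf, Subgroup.mem_centralizer_iff]
  simp

namespace SetupQ

variable (hS : SetupQ G K j l)

include hS

/-- a property of matrices which is additive and holds for `j x` -/
theorem induction {P : Matrix (Fin 2) (Fin 2) K → Prop} (h1 : ∀ x, P (j x : Matrix (Fin 2) (Fin 2) K)) (h0 : P 0)
    (ha : ∀ M N, P M → P N → P (M + N)) (hn : ∀ M, P M → P (-M)) (M : Matrix (Fin 2) (Fin 2) K) : P M := by
  have hM : M ∈ AddSubgroup.closure (Set.range fun x => (j x : Matrix (Fin 2) (Fin 2) K)) := by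
    rw [hS.span]; trivial
  induction hM using AddSubgroup.closure_induction with
  | mem x hx => obtain ⟨y, rfl⟩ := hx; exact h1 y
  | zero => exact h0
  | add x y _ _ h1 h2 => exact ha _ _ h1 h2
  | neg x _ h => exact hn _ h

theorem comm_smul {α : V ≃ₗ[ZMod p] V} (hα : α ∈ AA G l) (M : Matrix (Fin 2) (Fin 2) K) (v : V) :
    α (M • v) = M • α v := by
  revert v
  refine hS.induction (P := fun M => ∀ v, α (M • v) = M • α v) ?_ ?_ ?_ ?_ M
  · intro x v
    rw [← hS.act, ← hS.act]
    have := (mem_AA.1 hα).2 x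
    exact (DFunLike.congr_fun this v).symm
  · intro v; rw [zero_smul, zero_smul, map_zero]
  · intro M N h1 h2 v; rw [add_smul, add_smul, map_add, h1, h2]
  · intro M h v; rw [neg_smul, neg_smul, map_neg, h]

theorem l_inj : Function.Injective l := by
  rw [injective_iff_map_eq_one]
  intro x hx
  have h1 : (j x : Matrix (Fin 2) (Fin 2) K) - 1 = 0 := by
    refine faithful (V := V) hS.nontriv fun v => ?_
    rw [sub_smul, one_smul, ← hS.act, hx]
    simp
  have h2 : j x = 1 := Subtype.ext (sub_eq_zero.1 h1)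
  exact hS.jinj (by rw [h2, map_one])

theorem j_neg : j (-1) = -1 := by
  have h1 : j (-1) * j (-1) = 1 := by rw [← map_mul]; simp
  have h2 : j (-1) ≠ 1 := fun h => neg_one_ne (hS.jinj (by rw [h, map_one]))
  set M := j (-1) with hM
  have hdet := M.2
  rw [Matrix.det_fin_two] at hdet
  have hmul : (M : Matrix (Fin 2) (Fin 2) K) * M = 1 := congrArg Subtype.val h1
  have e00 := congrFun (congrFun hmul 0) 0
  have e01 := congrFun (congrFun hmul 0) 1
  have e10 := congrFun (congrFun hmul 1) 0
  have e11 := congrFun (congrFun hmul 1) 1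
  simp [Matrix.mul_apply, Fin.sum_univ_two] at e00 e01 e10 e11
  have h2K : (2 : K) ≠ 0 := by
    have := hS.char
    have h7 := hS.p7
    intro h
    have h3 : ((2 : ℕ) : K) = 0 := by exact_mod_cast h
    rw [CharP.cast_eq_zero_iff K p] at h3
    have := Nat.le_of_dvd (by norm_num) h3
    omega
  -- the trace
  have htr : (M 0 0 + M 1 1) * (M 0 0) = 2 := by linear_combination e00 + hdet
  have htr2 : (M 0 0 + M 1 1) * (M 1 1) = 2 := by linear_combination e11 + hdet
  have htr0 : M 0 0 + M 1 1 ≠ 0 := by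
    intro h
    rw [h, zero_mul] at htr
    exact h2K htr.symm
  have hb : M 0 1 = 0 := by
    have : (M 0 0 + M 1 1) * M 0 1 = 0 := by linear_combination e01
    exact (mul_eq_zero.1 this).resolve_left htr0
  have hc : M 1 0 = 0 := by
    have : (M 0 0 + M 1 1) * M 1 0 = 0 := by linear_combination e10
    exact (mul_eq_zero.1 this).resolve_left htr0
  have had : M 0 0 = M 1 1 := by
    have : (M 0 0 + M 1 1) * (M 0 0 - M 1 1) = 0 := by linear_combination htr - htr2
    exact sub_eq_zero.1 ((mul_eq_zero.1 this).resolve_left htr0)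
  have hsq : (M 0 0 - 1) * (M 0 0 + 1) = 0 := by
    rw [hb, zero_mul, add_zero] at e00
    linear_combination e00
  rcases mul_eq_zero.1 hsq with h | h
  · exfalso
    apply h2
    apply Subtype.ext
    ext i k
    fin_cases i <;> fin_cases k
    · simpa [sub_eq_zero] using h
    · simpa using hb
    · simpa using hc
    · simpa [sub_eq_zero, had] using h
  · apply Subtype.ext
    ext i k
    fin_cases i <;> fin_cases k
    · simpa using eq_neg_of_add_eq_zero_left h
    · simpa using hb
    · simpa using hc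
    · have : M 1 1 = -1 := by rw [← had]; exact eq_neg_of_add_eq_zero_left h
      simpa using this

theorem l_neg (v : V) : l (-1) v = -v := by
  rw [hS.act, hS.j_neg]
  simp

theorem two_ne : (2 : K) ≠ 0 := by
  have := hS.char
  have h7 := hS.p7
  intro h
  have h3 : ((2 : ℕ) : K) = 0 := by exact_mod_cast h
  rw [CharP.cast_eq_zero_iff K p] at h3
  have := Nat.le_of_dvd (by norm_num) h3
  omega

/-- the automorphism of `SL(2,5)` induced by `g ∈ G` -/
theorem exists_psi {g : V ≃ₗ[ZMod p] V} (hg : g ∈ G) : ∃ ψ : SL25 →* SL25, (∀ x, g * l x * g⁻¹ = l (ψ x)) ∧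
    Function.Injective ψ := by
  choose f hf using hS.norm g hg
  refine ⟨⟨⟨f, ?_⟩, ?_⟩, hf, ?_⟩
  · apply hS.l_inj
    rw [← hf, map_one, mul_one, mul_inv_cancel]
  · intro x y
    apply hS.l_inj
    change l (f (x * y)) = l (f x * f y)
    rw [map_mul, ← hf, ← hf, ← hf, map_mul]
    group
  · intro x y hxy
    have h1 : f x = f y := hxy
    apply hS.l_inj
    have h2 : g * l x * g⁻¹ = g * l y * g⁻¹ := by rw [hf, hf, h1]
    simpa using h2

/-- the automorphism of `M₂(K)` induced by `g ∈ G` -/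
theorem exists_phi {g : V ≃ₗ[ZMod p] V} {ψ : SL25 →* SL25} (hψ : ∀ x, g * l x * g⁻¹ = l (ψ x)) :
    ∃ φ : Matrix (Fin 2) (Fin 2) K →+* Matrix (Fin 2) (Fin 2) K, (∀ M (v : V), g (M • v) = φ M • g v) ∧
      (∀ x, φ (j x) = (j (ψ x) : Matrix (Fin 2) (Fin 2) K)) ∧ Function.Injective φ := by
  have hex : ∀ M : Matrix (Fin 2) (Fin 2) K, ∃ N : Matrix (Fin 2) (Fin 2) K, ∀ v : V, g (M • v) = N • g v := by
    refine hS.induction ?_ ?_ ?_ ?_
    · intro x
      refine ⟨j (ψ x), fun v => ?_⟩
      rw [← hS.act, ← hS.act]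
      have h1 : g * l x = l (ψ x) * g := by rw [← hψ x]; group
      exact DFunLike.congr_fun h1 v
    · exact ⟨0, fun v => by rw [zero_smul, zero_smul, map_zero]⟩
    · rintro M N ⟨M', hM⟩ ⟨N', hN⟩
      exact ⟨M' + N', fun v => by rw [add_smul, add_smul, map_add, hM, hN]⟩
    · rintro M ⟨M', hM⟩
      exact ⟨-M', fun v => by rw [neg_smul, neg_smul, map_neg, hM]⟩
  choose f hf using hex
  have uniq : ∀ M N : Matrix (Fin 2) (Fin 2) K, (∀ v : V, M • g v = N • g v) → M = N := by
    intro M N h
    have h1 : M - N = 0 := by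
      refine faithful (V := V) hS.nontriv fun v => ?_
      have := h (g.symm v)
      rw [LinearEquiv.apply_symm_apply] at this
      rw [sub_smul, this, sub_self]
    exact sub_eq_zero.1 h1
  refine ⟨{ toFun := f, map_one' := ?_, map_mul' := ?_, map_zero' := ?_, map_add' := ?_ }, hf, ?_, ?_⟩
  · refine uniq _ _ fun v => ?_
    rw [← hf, one_smul, one_smul]
  · intro M N
    refine uniq _ _ fun v => ?_
    rw [← hf, mul_smul, mul_smul, hf, hf]
  · refine uniq _ _ fun v => ?_
    rw [← hf, zero_smul, zero_smul, map_zero]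
  · intro M N
    refine uniq _ _ fun v => ?_
    rw [← hf, add_smul, add_smul, map_add, hf, hf]
  · intro x
    refine uniq _ _ fun v => ?_
    change f (j x) • g v = _
    rw [← hf, ← hS.act, ← hS.act]
    have h1 : g * l x = l (ψ x) * g := by rw [← hψ x]; group
    exact DFunLike.congr_fun h1 v
  · rw [injective_iff_map_eq_zero]
    intro M hM
    refine faithful (V := V) hS.nontriv fun v => ?_
    have h1 : g (M • v) = f M • g v := hf M v
    have h2 : f M = 0 := hM
    rw [h2, zero_smul] at h1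
    exact (LinearEquiv.map_eq_zero_iff g).1 h1

end SetupQ

end setup

end Cfsg.Agent.H312.HT
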