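import Cfsg.Agent.H312.HT.Core

/-!
# `SL(2,5)` acting through `SL₂(K)`: inner automorphisms, `LA G l` (helper312, S3540)
-/

set_option autoImplicit false

namespace Cfsg.Agent.H312.HT

open Cfsg.Agent.H828.HT Cfsg.Agent.PermutationGroups.AutSL25 Matrix

universe u v

/-! ### `SL₂(K)` -/

section sl

variable {K : Type v} [Field K]

theorem sl_det (M : Matrix.SpecialLinearGroup (Fin 2) K) : M 0 0 * M 1 1 - M 0 1 * M 1 0 = 1 := by
  rw [← Matrix.det_fin_two]; exact M.2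

theorem sl_ext {M N : Matrix.SpecialLinearGroup (Fin 2) K} (h00 : M 0 0 = N 0 0) (h01 : M 0 1 = N 0 1)
    (h10 : M 1 0 = N 1 0) (h11 : M 1 1 = N 1 1) : M = N := by
  apply Subtype.ext
  ext i k
  fin_cases i <;> fin_cases k <;> assumption

theorem mat_ext {M N : Matrix (Fin 2) (Fin 2) K} (h00 : M 0 0 = N 0 0) (h01 : M 0 1 = N 0 1)
    (h10 : M 1 0 = N 1 0) (h11 : M 1 1 = N 1 1) : M = N := by
  ext i k
  fin_cases i <;> fin_cases k <;> assumption

theorem sl_sq (M : Matrix.SpecialLinearGroup (Fin 2) K) :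
    (M : Matrix (Fin 2) (Fin 2) K) * M = (M 0 0 + M 1 1) • (M : Matrix (Fin 2) (Fin 2) K) - 1 := by
  have h := sl_det M
  apply mat_ext <;> simp [Matrix.mul_apply, Fin.sum_univ_two]
  · linear_combination -h
  · ring
  · ring
  · linear_combination -h

/-- trace of the fifth power relation -/
theorem golden {M : Matrix.SpecialLinearGroup (Fin 2) K} (h5 : M * M * M * M * M = 1)
    (hns : M 0 1 ≠ 0 ∨ M 1 0 ≠ 0 ∨ M 0 0 ≠ M 1 1) : (M 0 0 + M 1 1) ^ 2 + (M 0 0 + M 1 1) = 1 := by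
  set c := M 0 0 + M 1 1 with hc
  have hsq := sl_sq M
  rw [← hc] at hsq
  have h5' : (M : Matrix (Fin 2) (Fin 2) K) * M * M * M * M = 1 := congrArg Subtype.val h5
  have key : (c ^ 4 - 3 * c ^ 2 + 1) • (M : Matrix (Fin 2) (Fin 2) K) = (c ^ 3 - 2 * c + 1) • 1 := by
    have e3 : (M : Matrix (Fin 2) (Fin 2) K) * M * M = (c ^ 2 - 1) • (M : Matrix (Fin 2) (Fin 2) K) - c • 1 := by
      rw [hsq, sub_mul, smul_mul_assoc, hsq, one_mul]
      module
    have e4 : (M : Matrix (Fin 2) (Fin 2) K) * M * M * M = (c ^ 3 - 2 * c) • (M : Matrix (Fin 2) (Fin 2) K) - (c ^ 2 - 1) • 1 := by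
      rw [e3, sub_mul, smul_mul_assoc, hsq, smul_mul_assoc, one_mul]
      module
    rw [e4, sub_mul, smul_mul_assoc, hsq, smul_mul_assoc, one_mul] at h5'
    have h6 : (c ^ 4 - 3 * c ^ 2 + 1) • (M : Matrix (Fin 2) (Fin 2) K) - (c ^ 3 - 2 * c) • 1 = 1 := by
      rw [smul_sub, smul_smul] at h5'
      calc _ = ((c ^ 3 - 2 * c) * c) • (M : Matrix (Fin 2) (Fin 2) K) - (c ^ 3 - 2 * c) • 1 -
          (c ^ 2 - 1) • (M : Matrix (Fin 2) (Fin 2) K) := by module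
        _ = 1 := h5'
    calc (c ^ 4 - 3 * c ^ 2 + 1) • (M : Matrix (Fin 2) (Fin 2) K) =
        ((c ^ 4 - 3 * c ^ 2 + 1) • (M : Matrix (Fin 2) (Fin 2) K) - (c ^ 3 - 2 * c) • 1) + (c ^ 3 - 2 * c) • 1 := by
          rw [sub_add_cancel]
      _ = 1 + (c ^ 3 - 2 * c) • 1 := by rw [h6]
      _ = (c ^ 3 - 2 * c + 1) • 1 := by rw [add_smul, one_smul, add_comm]
  have k00 := congrFun (congrFun key 0) 0
  have k01 := congrFun (congrFun key 0) 1
  have k10 := congrFun (congrFun key 1) 0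
  have k11 := congrFun (congrFun key 1) 1
  simp at k00 k01 k10 k11
  have hz : c ^ 4 - 3 * c ^ 2 + 1 = 0 := by
    rcases hns with h | h | h
    · exact k01.resolve_right h
    · exact k10.resolve_right h
    · have : (c ^ 4 - 3 * c ^ 2 + 1) * (M 0 0 - M 1 1) = 0 := by linear_combination k00 - k11
      exact (mul_eq_zero.1 this).resolve_right (sub_ne_zero.2 h)
  rw [hz, zero_mul] at k00
  have h1 : (c ^ 2 + c - 1) * (c - 1) = 0 := by linear_combination -k00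
  have h2 : (c ^ 2 + c - 1) * (c ^ 2 - c - 1) = 0 := by linear_combination hz
  by_contra hne
  have h3 : c ^ 2 + c - 1 ≠ 0 := fun h => hne (by linear_combination h)
  have h4 := (mul_eq_zero.1 h1).resolve_left h3
  have h5 := (mul_eq_zero.1 h2).resolve_left h3
  have h6 : (1 : K) = 0 := by linear_combination h4 * c - h5
  exact one_ne_zero h6

theorem sl_add_inv (M : Matrix.SpecialLinearGroup (Fin 2) K) :
    (M : Matrix (Fin 2) (Fin 2) K) + ((M⁻¹ : Matrix.SpecialLinearGroup (Fin 2) K) : Matrix (Fin 2) (Fin 2) K) =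
      (M 0 0 + M 1 1) • 1 := by
  rw [Matrix.SpecialLinearGroup.coe_inv, Matrix.adjugate_fin_two]
  apply mat_ext <;> simp
  ring

/-- the trace -/
def tr (M : Matrix.SpecialLinearGroup (Fin 2) K) : K := M 0 0 + M 1 1

theorem tr_conj (M N : Matrix.SpecialLinearGroup (Fin 2) K) : tr (N * M * N⁻¹) = tr M := by
  have h : ∀ P : Matrix.SpecialLinearGroup (Fin 2) K, tr P = Matrix.trace (P : Matrix (Fin 2) (Fin 2) K) := by
    intro P
    rw [Matrix.trace_fin_two]; rfl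
  rw [h, h, Matrix.SpecialLinearGroup.coe_mul, Matrix.SpecialLinearGroup.coe_mul, Matrix.trace_mul_comm, ← mul_assoc,
    ← Matrix.SpecialLinearGroup.coe_mul, inv_mul_cancel, Matrix.SpecialLinearGroup.coe_one, one_mul]

theorem tr_sq (M : Matrix.SpecialLinearGroup (Fin 2) K) : tr (M * M) = tr M ^ 2 - 2 := by
  have h := sl_det M
  unfold tr
  rw [Matrix.SpecialLinearGroup.coe_mul]
  simp only [Matrix.mul_apply, Fin.sum_univ_two]
  linear_combination -2 * h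

end sl

/-! ### inner automorphisms -/

section setup

variable {p : ℕ} [Fact p.Prime] {V : Type u} [AddCommGroup V] [Module (ZMod p) V]
  {G : Subgroup (V ≃ₗ[ZMod p] V)} {K : Type v} [Field K] [Module (Matrix (Fin 2) (Fin 2) K) V]
  {j : SL25 →* Matrix.SpecialLinearGroup (Fin 2) K} {l : SL25 →* (V ≃ₗ[ZMod p] V)}

/-- `L C_G(L)` -/
def LC (G : Subgroup (V ≃ₗ[ZMod p] V)) (l : SL25 →* (V ≃ₗ[ZMod p] V)) : Subgroup (V ≃ₗ[ZMod p] V) where
  carrier := {g | ∃ x, ∃ α ∈ AA G l, g = l x * α}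
  one_mem' := ⟨1, 1, one_mem _, by simp⟩
  mul_mem' := by
    rintro _ _ ⟨x, α, hα, rfl⟩ ⟨y, β, hβ, rfl⟩
    refine ⟨x * y, α * β, mul_mem hα hβ, ?_⟩
    have h := (mem_AA.1 hα).2 y
    calc l x * α * (l y * β) = l x * (α * l y) * β := by group
      _ = l x * (l y * α) * β := by rw [h]
      _ = _ := by rw [map_mul]; group
  inv_mem' := by
    rintro _ ⟨x, α, hα, rfl⟩
    refine ⟨x⁻¹, α⁻¹, inv_mem hα, ?_⟩
    have h := (mem_AA.1 hα).2 x
    rw [h, _root_.mul_inv_rev, map_inv]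

theorem mem_LC {g : V ≃ₗ[ZMod p] V} : g ∈ LC G l ↔ ∃ x, ∃ α ∈ AA G l, g = l x * α := Iff.rfl

theorem AA_le_LC : AA G l ≤ LC G l := fun α hα => ⟨1, α, hα, by simp⟩

theorem AA_le : AA G l ≤ G := fun _ hα => (mem_AA.1 hα).1

namespace SetupQ

variable (hS : SetupQ G K j l)

include hS

theorem LC_le : LC G l ≤ G := by
  rintro _ ⟨x, α, hα, rfl⟩
  exact mul_mem (hS.mem x) (AA_le hα)

theorem range_le_LC (x : SL25) : l x ∈ LC G l := ⟨x, 1, one_mem _, by simp⟩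

omit hS in
theorem psi_neg {ψ : SL25 →* SL25} (hψ : Function.Injective ψ) : ψ (-1) = -1 := by
  apply eq_neg_one
  · rw [← map_mul]; simp
  · intro h
    exact neg_one_ne (hψ (by rw [h, map_one]))

theorem mem_LC_of_inner {g : V ≃ₗ[ZMod p] V} (hg : g ∈ G) {ψ : SL25 →* SL25} (hψ : ∀ x, g * l x * g⁻¹ = l (ψ x))
    {u : SL25} (hu : ∀ x, ψ x = u * x * u⁻¹) : g ∈ LC G l := by
  refine ⟨u, (l u)⁻¹ * g, ?_, by group⟩
  rw [mem_AA]
  refine ⟨mul_mem (inv_mem (hS.mem u)) hg, fun x => ?_⟩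
  have h1 := hψ x
  rw [hu, map_mul, map_mul, map_inv] at h1
  have h2 : g * l x = l u * l x * (l u)⁻¹ * g := by rw [← h1]; group
  rw [mul_assoc, h2]
  group

theorem inner_of_mem_LC {g : V ≃ₗ[ZMod p] V} (hg : g ∈ LC G l) {ψ : SL25 →* SL25}
    (hψ : ∀ x, g * l x * g⁻¹ = l (ψ x)) : ∃ u : SL25, ∀ x, ψ x = u * x * u⁻¹ := by
  obtain ⟨u, α, hα, rfl⟩ := hg
  refine ⟨u, fun x => ?_⟩
  apply hS.l_inj
  rw [← hψ]
  have h := (mem_AA.1 hα).2 x
  calc l u * α * l x * (l u * α)⁻¹ = l u * (α * l x) * α⁻¹ * (l u)⁻¹ := by group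
    _ = l u * (l x * α) * α⁻¹ * (l u)⁻¹ := by rw [h]
    _ = _ := by rw [map_mul, map_mul, map_inv]; group

omit hS in
theorem psi_T_ne {ψ : SL25 →* SL25} (hψ : Function.Injective ψ) : ψ T ≠ 1 := fun h =>
  T_ne (hψ (by rw [h, map_one]))

theorem outer_of_not_mem {g : V ≃ₗ[ZMod p] V} (hg : g ∈ G) (hn : g ∉ LC G l) {ψ : SL25 →* SL25}
    (hψ : ∀ x, g * l x * g⁻¹ = l (ψ x)) (hi : Function.Injective ψ) : ∃ w : SL25, ∀ x, ψ x = w * F.phi0 x * w⁻¹ :=
  F.outer_eq ψ (psi_neg hi) (psi_T_ne hi) fun ⟨_, hu⟩ => hn (hS.mem_LC_of_inner hg hψ hu)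

theorem mul_mem_LC {g₁ g₂ : V ≃ₗ[ZMod p] V} (h1 : g₁ ∈ G) (h2 : g₂ ∈ G) (hn1 : g₁ ∉ LC G l) (hn2 : g₂ ∉ LC G l) :
    g₁ * g₂ ∈ LC G l := by
  obtain ⟨ψ₁, hψ₁, hi₁⟩ := hS.exists_psi h1
  obtain ⟨ψ₂, hψ₂, hi₂⟩ := hS.exists_psi h2
  obtain ⟨w₁, hw₁⟩ := hS.outer_of_not_mem h1 hn1 hψ₁ hi₁
  obtain ⟨w₂, hw₂⟩ := hS.outer_of_not_mem h2 hn2 hψ₂ hi₂
  refine hS.mem_LC_of_inner (mul_mem h1 h2) (ψ := ψ₁.comp ψ₂) (fun x => ?_) (u := w₁ * F.phi0 w₂ * F.D0) fun x => ?_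
  · rw [MonoidHom.comp_apply, ← hψ₁, ← hψ₂]
    group
  · rw [MonoidHom.comp_apply, hw₁, hw₂, F.phi0_mul, F.phi0_mul, F.phi0_phi0,
      show F.phi0 w₂⁻¹ = (F.phi0 w₂)⁻¹ from map_inv F.Phi0 w₂]
    group

/-! ### the golden ratio -/

theorem five_ne : (5 : K) ≠ 0 := by
  have := hS.char
  have h7 := hS.p7
  intro h
  have h3 : ((5 : ℕ) : K) = 0 := by exact_mod_cast h
  rw [CharP.cast_eq_zero_iff K p] at h3
  have := Nat.le_of_dvd (by norm_num) h3
  omega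

theorem not_scalar {x : SL25} (h1 : x ≠ 1) (h2 : x ≠ -1) :
    (j x) 0 1 ≠ 0 ∨ (j x) 1 0 ≠ 0 ∨ (j x) 0 0 ≠ (j x) 1 1 := by
  by_contra hcon
  push Not at hcon
  obtain ⟨h01, h10, h00⟩ := hcon
  have hc : ∀ y, j x * j y = j y * j x := by
    intro y
    apply Subtype.ext
    rw [Matrix.SpecialLinearGroup.coe_mul, Matrix.SpecialLinearGroup.coe_mul]
    apply mat_ext <;> simp [Matrix.mul_apply, Fin.sum_univ_two, h01, h10, h00, mul_comm]
  have hc2 : ∀ y, x * y = y * x := fun y => hS.jinj (by rw [map_mul, map_mul, hc])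
  rcases mem_center_iff x ⟨hc2 S, hc2 T⟩ with h | h
  · exact h1 h
  · exact h2 h

theorem gamma : tr (j T) ^ 2 + tr (j T) = 1 := by
  apply golden
  · rw [← map_mul, ← map_mul, ← map_mul, ← map_mul, relT, map_one]
  · exact hS.not_scalar T_ne (by decide +kernel)

theorem gamma_ne : tr (j T) ^ 2 - 2 ≠ tr (j T) := by
  intro h
  have h1 := hS.gamma
  apply hS.five_ne
  have h2 : 2 * tr (j T) = -1 := by linear_combination h1 - h
  linear_combination (2 * tr (j T) + 1) * h2 - 4 * h1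

/-- the action on scalars -/
theorem phi_gamma {ψ : SL25 →* SL25} {φ : Matrix (Fin 2) (Fin 2) K →+* Matrix (Fin 2) (Fin 2) K}
    (hφ : ∀ x, φ (j x) = (j (ψ x) : Matrix (Fin 2) (Fin 2) K)) : φ ((tr (j T)) • 1) = (tr (j (ψ T))) • 1 := by
  have h1 := sl_add_inv (j T)
  have h2 := sl_add_inv (j (ψ T))
  unfold tr
  rw [← h1, ← h2, map_add, hφ, ← map_inv, hφ, ← map_inv, map_inv ψ]

theorem mem_LC_of_card (hK : Nat.card K = p) {g : V ≃ₗ[ZMod p] V} (hg : g ∈ G) : g ∈ LC G l := by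
  by_contra hn
  obtain ⟨ψ, hψ, hi⟩ := hS.exists_psi hg
  obtain ⟨w, hw⟩ := hS.outer_of_not_mem hg hn hψ hi
  obtain ⟨φ, -, hφ, -⟩ := hS.exists_phi hψ
  have h1 := hS.phi_gamma hφ
  have h2 : φ ((tr (j T)) • 1) = (tr (j T)) • 1 := by
    have := hS.char
    have := hS.fin
    obtain ⟨n, hn⟩ : ∃ n : ℕ, (n : K) = tr (j T) := by
      have hF := Fintype.ofFinite K
      rw [Nat.card_eq_fintype_card] at hK
      have hsurj : Function.Bijective (ZMod.castHom (dvd_refl p) K) := by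
        rw [Fintype.bijective_iff_injective_and_card]
        exact ⟨(ZMod.castHom _ K).injective, by rw [ZMod.card, hK]⟩
      obtain ⟨z, hz⟩ := hsurj.2 (tr (j T))
      refine ⟨z.val, ?_⟩
      rw [← hz, ZMod.castHom_apply, ZMod.natCast_val]
    rw [← hn]
    have h3 : ((n : K) • (1 : Matrix (Fin 2) (Fin 2) K)) = (n : Matrix (Fin 2) (Fin 2) K) := by
      rw [Nat.cast_smul_eq_nsmul, nsmul_one]
    rw [h3, map_natCast]
  rw [h2] at h1
  have h3 : tr (j T) = tr (j (ψ T)) := by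
    have := congrFun (congrFun h1 0) 0
    simpa using this
  have h4 : tr (j (ψ T)) = tr (j T) ^ 2 - 2 := by
    obtain ⟨w', hw'⟩ := F.conj_T3
    rw [hw, F.phi0_T, hw', map_mul, map_mul, map_inv, tr_conj, map_mul, map_mul, map_inv, tr_conj, map_mul, tr_sq]
  exact hS.gamma_ne (by rw [← h4, ← h3])

end SetupQ

end setup

end Cfsg.Agent.H312.HT
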