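import Cfsg.Agent.H828.HT.Basic
import Cfsg.Agent.PermutationGroups.AutSL25

/-!
# S3540, TEAM HT: `SL(2,5)` normal in a half-transitive linear group, definitions (helper312)

* `FaithSub L` : `V` is a homogeneous `L`-module;
* `SetupQ` : `V` is a module for `M₂(K)`, `SL(2,5)` acts through `SL₂(K)`.
-/

set_option autoImplicit false

namespace Cfsg.Agent.H312.HT

open Cfsg.Agent.H828.HT Cfsg.Agent.PermutationGroups.AutSL25 Matrix

universe u v

section defs

variable {p : ℕ} [Fact p.Prime] {V : Type u} [AddCommGroup V] [Module (ZMod p) V]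

/-- `V` is a homogeneous `L`-module: the enveloping algebra of `L` acts faithfully on every non-zero `L`-submodule. -/
def FaithSub (L : Subgroup (V ≃ₗ[ZMod p] V)) : Prop :=
  ∀ W : Submodule (ZMod p) V, W ≠ ⊥ → (∀ g ∈ L, ∀ w ∈ W, g w ∈ W) →
    ∀ e ∈ Algebra.adjoin (ZMod p) ((fun g : V ≃ₗ[ZMod p] V => (g : V →ₗ[ZMod p] V)) '' (L : Set (V ≃ₗ[ZMod p] V))),
      (∀ w ∈ W, e w = 0) → e = 0

/-- `V` is a faithful module for `R = M₂(K)`, `SL(2,5)` acts through `j : SL(2,5) → SL₂(K)`, whose image generates `R`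
as an additive group, and `G` normalises the image of `SL(2,5)`; `|K| = p` or `|K| = p²` and `X² + X - 1` has no root
in the prime field. -/
structure SetupQ (G : Subgroup (V ≃ₗ[ZMod p] V)) (K : Type v) [Field K]
    [Module (Matrix (Fin 2) (Fin 2) K) V] (j : SL25 →* Matrix.SpecialLinearGroup (Fin 2) K)
    (l : SL25 →* (V ≃ₗ[ZMod p] V)) : Prop where
  p7 : 7 ≤ p
  char : CharP K p
  fin : Finite K
  card : Nat.card K = p ∨ (Nat.card K = p ^ 2 ∧ ∀ n : ℕ, (n : K) * n + n ≠ 1)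
  nontriv : ∃ v : V, v ≠ 0
  jinj : Function.Injective j
  act : ∀ x v, l x v = (j x : Matrix (Fin 2) (Fin 2) K) • v
  mem : ∀ x, l x ∈ G
  norm : ∀ g ∈ G, ∀ x, ∃ y, g * l x * g⁻¹ = l y
  span : AddSubgroup.closure (Set.range fun x => (j x : Matrix (Fin 2) (Fin 2) K)) = ⊤

/-- the centraliser of `L` in `G` -/
def AA (G : Subgroup (V ≃ₗ[ZMod p] V)) (l : SL25 →* (V ≃ₗ[ZMod p] V)) : Subgroup (V ≃ₗ[ZMod p] V) :=
  G ⊓ Subgroup.centralizer (Set.range l)

/-- the subgroup of `G` generated by `L` and its centraliser -/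
def LA (G : Subgroup (V ≃ₗ[ZMod p] V)) (l : SL25 →* (V ≃ₗ[ZMod p] V)) : Subgroup (V ≃ₗ[ZMod p] V) :=
  l.range ⊔ AA G l

/-- `v` has rank two -/
def Rk2 (K : Type v) [Field K] [Module (Matrix (Fin 2) (Fin 2) K) V] (v : V) : Prop :=
  ∀ M : Matrix (Fin 2) (Fin 2) K, M • v = 0 → M = 0

end defs

end Cfsg.Agent.H312.HT
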