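import Cfsg.Agent.H312.HT.Stab
import Cfsg.Agent.ClassicalGeometry.PSL2Basic

/-!
# Counting in `SL₂(K)` (helper312, S3540)
-/

set_option autoImplicit false

namespace Cfsg.Agent.H312.HT

open Cfsg.Agent.H828.HT Cfsg.Agent.PermutationGroups.AutSL25 Matrix

universe u v

section cent

variable {K : Type v} [Field K] [Finite K]

open Classical in
/-- the fibers have at most two elements -/
theorem card_le_of_fiber {α β : Type*} [Finite α] [Finite β] (f : α → β)
    (hf : ∀ a b c, f a = f b → f b = f c → a = b ∨ b = c ∨ a = c) : Nat.card α ≤ 2 * Nat.card β := by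
  have hα := Fintype.ofFinite α
  have hβ := Fintype.ofFinite β
  rw [Nat.card_eq_fintype_card, Nat.card_eq_fintype_card, ← Finset.card_univ, ← Finset.card_univ]
  refine (Finset.card_le_mul_card_image (s := (Finset.univ : Finset α)) (f := f) 2 ?_).trans
    (Nat.mul_le_mul_left 2 (Finset.card_le_card (Finset.subset_univ _)))
  intro b _
  by_contra hcon
  push Not at hcon
  obtain ⟨x, y, z, hx, hy, hz, hxy, hxz, hyz⟩ := Finset.two_lt_card_iff.1 hcon
  simp only [Finset.mem_filter, Finset.mem_univ, true_and] at hx hy hz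
  rcases hf x y z (hx.trans hy.symm) (hy.trans hz.symm) with h | h | h
  · exact hxy h
  · exact hyz h
  · exact hxz h

theorem comm_eqs {u y : Matrix.SpecialLinearGroup (Fin 2) K} (h : u * y = y * u) :
    (u 0 1 * y 1 0 = y 0 1 * u 1 0) ∧ (u 0 0 * y 0 1 + u 0 1 * y 1 1 = y 0 0 * u 0 1 + y 0 1 * u 1 1) ∧
      (u 1 0 * y 0 0 + u 1 1 * y 1 0 = y 1 0 * u 0 0 + y 1 1 * u 1 0) := by
  have h := congrArg Subtype.val h
  rw [Matrix.SpecialLinearGroup.coe_mul, Matrix.SpecialLinearGroup.coe_mul] at h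
  have h00 := congrFun (congrFun h 0) 0
  have h01 := congrFun (congrFun h 0) 1
  have h10 := congrFun (congrFun h 1) 0
  simp only [Matrix.mul_apply, Fin.sum_univ_two] at h00 h01 h10
  exact ⟨by linear_combination h00, h01, h10⟩

theorem card_cent_diag {y : Matrix.SpecialLinearGroup (Fin 2) K} (h01 : y 0 1 = 0) (h10 : y 1 0 = 0)
    (hd : y 0 0 ≠ y 1 1) :
    Nat.card {u : Matrix.SpecialLinearGroup (Fin 2) K // u * y = y * u} ≤ 2 * Nat.card K := by
  refine card_le_of_fiber (fun u => u.1 0 0) ?_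
  have hdiag : ∀ u : {u : Matrix.SpecialLinearGroup (Fin 2) K // u * y = y * u}, u.1 0 1 = 0 ∧ u.1 1 0 = 0 := by
    intro u
    obtain ⟨-, e1, e2⟩ := comm_eqs u.2
    rw [h01] at e1
    rw [h10] at e2
    refine ⟨?_, ?_⟩
    · have : u.1 0 1 * (y 1 1 - y 0 0) = 0 := by linear_combination e1
      exact (mul_eq_zero.1 this).resolve_right (sub_ne_zero.2 hd.symm)
    · have : u.1 1 0 * (y 0 0 - y 1 1) = 0 := by linear_combination e2
      exact (mul_eq_zero.1 this).resolve_right (sub_ne_zero.2 hd)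
  intro a b c hab _
  left
  apply Subtype.ext
  have ha := sl_det a.1
  have hb := sl_det b.1
  have hab' : a.1 0 0 = b.1 0 0 := hab
  rw [(hdiag a).1, zero_mul, sub_zero] at ha
  rw [(hdiag b).1, zero_mul, sub_zero, ← hab'] at hb
  have hne : a.1 0 0 ≠ 0 := left_ne_zero_of_mul_eq_one ha
  exact sl_ext hab' (by rw [(hdiag a).1, (hdiag b).1]) (by rw [(hdiag a).2, (hdiag b).2])
    (mul_left_cancel₀ hne (ha.trans hb.symm))

theorem card_cent_low {y : Matrix.SpecialLinearGroup (Fin 2) K} (h10 : y 1 0 ≠ 0) :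
    Nat.card {u : Matrix.SpecialLinearGroup (Fin 2) K // u * y = y * u} ≤ 2 * Nat.card K := by
  refine card_le_of_fiber (fun u => u.1 1 0) ?_
  have k1 : ∀ a b : {u : Matrix.SpecialLinearGroup (Fin 2) K // u * y = y * u}, a.1 1 0 = b.1 1 0 →
      a.1 0 0 = b.1 0 0 → a = b := by
    intro a b hab h00
    obtain ⟨a1, -, a2⟩ := comm_eqs a.2
    obtain ⟨b1, -, b2⟩ := comm_eqs b.2
    apply Subtype.ext
    refine sl_ext h00 ?_ hab ?_
    · apply mul_right_cancel₀ h10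
      rw [a1, b1, hab]
    · apply mul_right_cancel₀ h10
      linear_combination a2 - b2 + y 1 0 * h00 - (y 0 0 - y 1 1) * hab
  have k2 : ∀ a b : {u : Matrix.SpecialLinearGroup (Fin 2) K // u * y = y * u}, a.1 1 0 = b.1 1 0 →
      a.1 0 0 ≠ b.1 0 0 → (a.1 0 0 + b.1 0 0) * y 1 0 = b.1 1 0 * (y 0 0 - y 1 1) := by
    intro a b hab h00
    have ha := sl_det a.1
    have hb := sl_det b.1
    obtain ⟨a1, -, a2⟩ := comm_eqs a.2
    obtain ⟨b1, -, b2⟩ := comm_eqs b.2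
    have h3 : (a.1 0 0 - b.1 0 0) * ((a.1 0 0 + b.1 0 0) * y 1 0 - b.1 1 0 * (y 0 0 - y 1 1)) = 0 := by
      linear_combination (y 1 0) * ha - (y 1 0) * hb - a.1 0 0 * a2 + b.1 0 0 * b2 + a.1 1 0 * a1 - b.1 1 0 * b1 +
        (y 0 1 * (a.1 1 0 + b.1 1 0) - a.1 0 0 * (y 1 1 - y 0 0)) * hab
    exact sub_eq_zero.1 ((mul_eq_zero.1 h3).resolve_left (sub_ne_zero.2 h00))
  intro a b c hab hbc
  have hab' : a.1 1 0 = b.1 1 0 := hab
  have hbc' : b.1 1 0 = c.1 1 0 := hbc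
  by_cases h1 : a.1 0 0 = b.1 0 0
  · left; exact k1 a b hab' h1
  by_cases h2 : b.1 0 0 = c.1 0 0
  · right; left; exact k1 b c hbc' h2
  right; right
  refine k1 a c (hab'.trans hbc') ?_
  have e1 := k2 a b hab' h1
  have e2 := k2 b c hbc' h2
  rw [← hbc'] at e2
  apply mul_right_cancel₀ h10
  linear_combination e1 - e2

theorem card_cent_le {y : Matrix.SpecialLinearGroup (Fin 2) K}
    (hy : y 0 1 ≠ 0 ∨ y 1 0 ≠ 0 ∨ y 0 0 ≠ y 1 1) :
    Nat.card {u : Matrix.SpecialLinearGroup (Fin 2) K // u * y = y * u} ≤ 2 * Nat.card K := by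
  by_cases h10 : y 1 0 = 0
  · by_cases h01 : y 0 1 = 0
    · refine card_cent_diag h01 h10 ?_
      rcases hy with h | h | h
      · exact absurd h01 h
      · exact absurd h10 h
      · exact h
    · -- transpose
      have h2 : (y.transpose) 1 0 ≠ 0 := h01
      have h3 := card_cent_low (y := y.transpose) h2
      refine le_trans (le_of_eq ?_) h3
      have ht : ∀ u w : Matrix.SpecialLinearGroup (Fin 2) K, (u * w).transpose = w.transpose * u.transpose := by
        intro u w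
        apply Subtype.ext
        change ((u * w : Matrix.SpecialLinearGroup (Fin 2) K) : Matrix (Fin 2) (Fin 2) K)ᵀ = _
        rw [Matrix.SpecialLinearGroup.coe_mul, Matrix.transpose_mul]
        rfl
      have htt : ∀ u : Matrix.SpecialLinearGroup (Fin 2) K, u.transpose.transpose = u := fun u =>
        Subtype.ext (Matrix.transpose_transpose _)
      refine Nat.card_congr ⟨fun u => ⟨u.1.transpose, ?_⟩, fun u => ⟨u.1.transpose, ?_⟩, fun u => ?_, fun u => ?_⟩
      · rw [← ht, ← ht, u.2]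
      · have h5 := congrArg Matrix.SpecialLinearGroup.transpose u.2
        rw [ht, ht, htt] at h5
        exact h5.symm
      · exact Subtype.ext (htt _)
      · exact Subtype.ext (htt _)
  · exact card_cent_low h10

end cent

section setup

variable {p : ℕ} [Fact p.Prime] {V : Type u} [AddCommGroup V] [Module (ZMod p) V]
  {G : Subgroup (V ≃ₗ[ZMod p] V)} {h : ℕ} {K : Type v} [Field K] [Module (Matrix (Fin 2) (Fin 2) K) V]
  {j : SL25 →* Matrix.SpecialLinearGroup (Fin 2) K} {l : SL25 →* (V ≃ₗ[ZMod p] V)}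

namespace SetupQ

variable (hS : SetupQ G K j l)

include hS

theorem finSL : Finite (Matrix.SpecialLinearGroup (Fin 2) K) := by
  have := hS.fin
  infer_instance

/-- the elements of `SL(2,5)` conjugate to a given `y` in `SL₂(K)` -/
theorem card_conj_le (y : Matrix.SpecialLinearGroup (Fin 2) K) :
    Nat.card {x : SL25 // (x ≠ 1 ∧ x ≠ -1) ∧ ∃ u : Matrix.SpecialLinearGroup (Fin 2) K, j x = u * y * u⁻¹} ≤ 30 := by
  by_cases hne : ∃ x : SL25, (x ≠ 1 ∧ x ≠ -1) ∧ ∃ u : Matrix.SpecialLinearGroup (Fin 2) K, j x = u * y * u⁻¹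
  swap
  · have : IsEmpty {x : SL25 // (x ≠ 1 ∧ x ≠ -1) ∧ ∃ u : Matrix.SpecialLinearGroup (Fin 2) K, j x = u * y * u⁻¹} :=
      ⟨fun x => hne ⟨x.1, x.2⟩⟩
    rw [Nat.card_of_isEmpty]
    omega
  obtain ⟨x₀, ⟨h1, h2⟩, u₀, hu₀⟩ := hne
  have hconj : ∀ x : {x : SL25 // (x ≠ 1 ∧ x ≠ -1) ∧ ∃ u : Matrix.SpecialLinearGroup (Fin 2) K, j x = u * y * u⁻¹},
      ∃ w : Matrix.SpecialLinearGroup (Fin 2) K, j x.1 = w * j x₀ * w⁻¹ := by
    rintro ⟨x, -, u, hu⟩
    refine ⟨u * u₀⁻¹, ?_⟩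
    change j x = _
    rw [hu, hu₀]; group
  have bound : ∀ (P : SL25 → Prop) (n : ℕ), Nat.card {x : SL25 // P x} ≤ n → n ≤ 30 →
      (∀ x : {x : SL25 // (x ≠ 1 ∧ x ≠ -1) ∧ ∃ u : Matrix.SpecialLinearGroup (Fin 2) K, j x = u * y * u⁻¹}, P x.1) →
      Nat.card {x : SL25 // (x ≠ 1 ∧ x ≠ -1) ∧ ∃ u : Matrix.SpecialLinearGroup (Fin 2) K, j x = u * y * u⁻¹} ≤ 30 := by
    intro P n hn h30 hP
    refine le_trans ?_ (hn.trans h30)
    exact Nat.card_le_card_of_injective (fun x => (⟨x.1, hP x⟩ : {x : SL25 // P x}))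
      (fun a b hab => Subtype.ext (congrArg (fun z : {x : SL25 // P x} => z.1) hab))
  have hm1 : ∀ w : Matrix.SpecialLinearGroup (Fin 2) K, w * (-1) * w⁻¹ = -1 := by intro w; simp
  rcases F.orders x₀ h1 h2 with h | h | h | h | h
  · refine bound (fun x => x * x = -1) 30 (by rw [Nat.card_eq_fintype_card, F.card_four]) le_rfl fun x => ?_
    obtain ⟨w, hw⟩ := hconj x
    apply hS.jinj
    rw [map_mul, hw]
    calc w * j x₀ * w⁻¹ * (w * j x₀ * w⁻¹) = w * (j x₀ * j x₀) * w⁻¹ := by group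
      _ = j (-1) := by rw [← map_mul, h, hS.j_neg, hm1]
  · refine bound (fun x => x * x * x = 1 ∧ x ≠ 1) 20 (by rw [Nat.card_eq_fintype_card, F.card_three]) (by norm_num)
      fun x => ⟨?_, x.2.1.1⟩
    obtain ⟨w, hw⟩ := hconj x
    apply hS.jinj
    rw [map_mul, map_mul, hw]
    calc w * j x₀ * w⁻¹ * (w * j x₀ * w⁻¹) * (w * j x₀ * w⁻¹) = w * (j x₀ * j x₀ * j x₀) * w⁻¹ := by group
      _ = j 1 := by rw [← map_mul, ← map_mul, h, map_one]; group
  · refine bound (fun x => x * x * x = -1 ∧ x ≠ -1) 20 (by rw [Nat.card_eq_fintype_card, F.card_three']) (by norm_num)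
      fun x => ⟨?_, x.2.1.2⟩
    obtain ⟨w, hw⟩ := hconj x
    apply hS.jinj
    rw [map_mul, map_mul, hw]
    calc w * j x₀ * w⁻¹ * (w * j x₀ * w⁻¹) * (w * j x₀ * w⁻¹) = w * (j x₀ * j x₀ * j x₀) * w⁻¹ := by group
      _ = j (-1) := by rw [← map_mul, ← map_mul, h, hS.j_neg, hm1]
  · refine bound (fun x => x * x * x * x * x = 1 ∧ x ≠ 1) 24 (by rw [Nat.card_eq_fintype_card, F.card_five]) (by norm_num)
      fun x => ⟨?_, x.2.1.1⟩
    obtain ⟨w, hw⟩ := hconj x
    apply hS.jinj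
    rw [map_mul, map_mul, map_mul, map_mul, hw]
    calc w * j x₀ * w⁻¹ * (w * j x₀ * w⁻¹) * (w * j x₀ * w⁻¹) * (w * j x₀ * w⁻¹) * (w * j x₀ * w⁻¹) =
        w * (j x₀ * j x₀ * j x₀ * j x₀ * j x₀) * w⁻¹ := by group
      _ = j 1 := by rw [← map_mul, ← map_mul, ← map_mul, ← map_mul, h, map_one]; group
  · refine bound (fun x => x * x * x * x * x = -1 ∧ x ≠ -1) 24 (by rw [Nat.card_eq_fintype_card, F.card_five'])
      (by norm_num) fun x => ⟨?_, x.2.1.2⟩
    obtain ⟨w, hw⟩ := hconj x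
    apply hS.jinj
    rw [map_mul, map_mul, map_mul, map_mul, hw]
    calc w * j x₀ * w⁻¹ * (w * j x₀ * w⁻¹) * (w * j x₀ * w⁻¹) * (w * j x₀ * w⁻¹) * (w * j x₀ * w⁻¹) =
        w * (j x₀ * j x₀ * j x₀ * j x₀ * j x₀) * w⁻¹ := by group
      _ = j (-1) := by rw [← map_mul, ← map_mul, ← map_mul, ← map_mul, h, hS.j_neg, hm1]

/-- pairs `(u, x)` with `x u y = u` -/
theorem card_ux_le (y : Matrix.SpecialLinearGroup (Fin 2) K) :
    Nat.card {z : Matrix.SpecialLinearGroup (Fin 2) K × SL25 // (z.2 ≠ 1 ∧ z.2 ≠ -1) ∧ j z.2 * z.1 * y = z.1} ≤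
      60 * Nat.card K := by
  have := hS.fin
  have := hS.finSL
  let X := {x : SL25 // (x ≠ 1 ∧ x ≠ -1) ∧ ∃ u : Matrix.SpecialLinearGroup (Fin 2) K, j x = u * y⁻¹ * u⁻¹}
  have e : {z : Matrix.SpecialLinearGroup (Fin 2) K × SL25 // (z.2 ≠ 1 ∧ z.2 ≠ -1) ∧ j z.2 * z.1 * y = z.1} ≃
      Σ x : X, {u : Matrix.SpecialLinearGroup (Fin 2) K // j x.1 * u * y = u} :=
    { toFun := fun z => ⟨⟨z.1.2, z.2.1, z.1.1, by
        have h := z.2.2
        rw [← eq_mul_inv_iff_mul_eq] at h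
        rw [← h]; group⟩, ⟨z.1.1, z.2.2⟩⟩
      invFun := fun s => ⟨(s.2.1, s.1.1), s.1.2.1, s.2.2⟩
      left_inv := fun z => rfl
      right_inv := fun s => rfl }
  rw [Nat.card_congr e]
  have hF := Fintype.ofFinite X
  rw [Nat.card_sigma]
  have hX : Fintype.card X ≤ 30 := by
    rw [← Nat.card_eq_fintype_card]
    exact hS.card_conj_le y⁻¹
  calc ∑ x : X, Nat.card {u : Matrix.SpecialLinearGroup (Fin 2) K // j x.1 * u * y = u}
      ≤ ∑ _x : X, 2 * Nat.card K := by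
        refine Finset.sum_le_sum fun x _ => ?_
        obtain ⟨⟨hx1, hx2⟩, u₀, hu₀⟩ := x.2
        have hc := card_cent_le (hS.not_scalar hx1 hx2)
        refine le_trans (Nat.card_le_card_of_injective
          (fun u : {u : Matrix.SpecialLinearGroup (Fin 2) K // j x.1 * u * y = u} =>
            (⟨u.1 * u₀⁻¹, ?_⟩ : {u : Matrix.SpecialLinearGroup (Fin 2) K // u * j x.1 = j x.1 * u})) ?_) hc
        · have h := u.2
          rw [← eq_mul_inv_iff_mul_eq] at h
          calc u.1 * u₀⁻¹ * j x.1 = u.1 * u₀⁻¹ * (u₀ * y⁻¹ * u₀⁻¹) := congrArg (fun t => u.1 * u₀⁻¹ * t) hu₀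
            _ = u.1 * y⁻¹ * u₀⁻¹ := by group
            _ = j x.1 * (u.1 * u₀⁻¹) := by rw [← h]; group
        · intro a b hab
          have h := congrArg (fun z : {u : Matrix.SpecialLinearGroup (Fin 2) K // u * j x.1 = j x.1 * u} => z.1) hab
          exact Subtype.ext (mul_right_cancel h)
    _ = Fintype.card X * (2 * Nat.card K) := by rw [Finset.sum_const, Finset.card_univ, smul_eq_mul]
    _ ≤ 30 * (2 * Nat.card K) := Nat.mul_le_mul_right _ hX
    _ = 60 * Nat.card K := by ring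

end SetupQ

end setup

end Cfsg.Agent.H312.HT
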