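import Cfsg.Agent.H312.HT.SL25
import Cfsg.Agent.H432.HT.Three

/-!
# S3540: the row of a normal subgroup `SL(2,5)` (helper312)
-/

set_option autoImplicit false

namespace Cfsg.Agent.H312.HT

universe u

/-- **a normal subgroup `SL(2,5)`** -/
theorem sl5row : Cfsg.Agent.H960.HT.SL5Row.{u} :=
  sl25_of fun _ _ _ _ _ _ _ _ hG hh h2 e he hL hn hom => Cfsg.Agent.H432.HT.three_free hG hh h2 e he hL hn hom

end Cfsg.Agent.H312.HT
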