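import Cfsg.Agent.H312.HT.MultOneB
import Cfsg.Agent.H432.HT.Quat
import Cfsg.Agent.H960.HT.Asm

/-!
# S3540: a normal subgroup `SL(2,5)` (helper312)
-/

set_option autoImplicit false

namespace Cfsg.Agent.H312.HT

open Cfsg.Agent.H828.HT Cfsg.Agent.PermutationGroups.AutSL25 Matrix
open Cfsg.Agent.H960.HT (Homog NIrr exists_nirr sSup_nirr AllHomog SL5Row Lst Irr)

universe u v

variable {p : ℕ} [Fact p.Prime] {V : Type u} [AddCommGroup V] [Module (ZMod p) V] [Finite V]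
  {G : Subgroup (V ≃ₗ[ZMod p] V)} {h : ℕ}

/-- homogeneous normal subgroups -/
theorem faithSub_of_homog [Nontrivial V] {N : Subgroup (V ≃ₗ[ZMod p] V)} (hH : Homog N) (hirr : Irr G)
    (hN : ∀ g ∈ G, ∀ n ∈ N, g * n * g⁻¹ ∈ N) : FaithSub N := by
  intro W hW hinv e he h0
  obtain ⟨M, hMW, hM⟩ := exists_nirr N hW hinv
  have hker : ∀ M' : Submodule (ZMod p) V, NIrr N M' → M' ≤ LinearMap.ker e := by
    intro M' hM' v' hv'
    obtain ⟨φ, hφ⟩ := hH M M' hM hM'
    have key : ∀ v : M, ∃ w : M, (w : V) = e v ∧ (φ w : V) = e (φ v) := by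
      refine Algebra.adjoin_induction (p := fun e _ => ∀ v : M, ∃ w : M, (w : V) = e v ∧ (φ w : V) = e (φ v))
        ?_ ?_ ?_ ?_ he
      · rintro _ ⟨n, hn, rfl⟩ v
        exact ⟨⟨n v, hM.inv n hn v v.2⟩, rfl, hφ n hn v _ rfl⟩
      · intro r v
        refine ⟨r • v, rfl, ?_⟩
        rw [map_smul]; rfl
      · intro x y _ _ hx hy v
        obtain ⟨w1, h1, h1'⟩ := hx v
        obtain ⟨w2, h2, h2'⟩ := hy v
        refine ⟨w1 + w2, ?_, ?_⟩
        · rw [Submodule.coe_add, h1, h2]; rfl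
        · rw [map_add, Submodule.coe_add, h1', h2']; rfl
      · intro x y _ _ hx hy v
        obtain ⟨w2, h2, h2'⟩ := hy v
        obtain ⟨w1, h1, h1'⟩ := hx w2
        refine ⟨w1, ?_, ?_⟩
        · rw [h1, h2]; rfl
        · rw [h1', h2']; rfl
    obtain ⟨w, h1, h2⟩ := key (φ.symm ⟨v', hv'⟩)
    rw [h0 _ (hMW (φ.symm ⟨v', hv'⟩).2)] at h1
    have h3 : w = 0 := Subtype.ext h1
    rw [h3, map_zero, LinearEquiv.apply_symm_apply] at h2
    exact h2.symm
  have h1 : (⊤ : Submodule (ZMod p) V) ≤ LinearMap.ker e := by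
    rw [← sSup_nirr hirr hN]
    exact sSup_le fun M' hM' => hker M' hM'
  ext v
  exact h1 (Submodule.mem_top (x := v))

section

variable {K : Type v} [Field K] [Module (Matrix (Fin 2) (Fin 2) K) V]
  {j : SL25 →* Matrix.SpecialLinearGroup (Fin 2) K} {l : SL25 →* (V ≃ₗ[ZMod p] V)}

theorem card_of_no_rk2 (hS : SetupQ G K j l) (hno : ∀ v : V, ¬ Rk2 K v) : Nat.card V = Nat.card K ^ 2 := by
  have := hS.fin
  rw [card_V_eq (K := K) (V := V)]
  congr 1
  obtain ⟨b₀, h0, hne⟩ : ∃ b₀ : V, InB K b₀ ∧ b₀ ≠ 0 := by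
    by_contra hcon
    push Not at hcon
    obtain ⟨v, hv⟩ := hS.nontriv
    apply hv
    rw [← vec_coord (K := K) v, hcon _ (inB_e00 v), hcon _ (inB_e01 v)]
    unfold vec
    rw [smul_zero, add_zero]
  have hscB : ∀ c : K, InB K (sc c b₀) := by
    intro c
    unfold InB sc
    rw [← mul_smul, mul_smul_comm, mul_one]
    nth_rewrite 2 [← h0]
    rw [← mul_smul, smul_mul_assoc, one_mul]
  refine (Nat.card_congr (Equiv.ofBijective (fun c : K => (⟨sc c b₀, hscB c⟩ : {b : V // InB K b})) ⟨?_, ?_⟩)).symm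
  · intro c d hcd
    exact sc_inj' hne (congrArg Subtype.val hcd)
  · rintro ⟨b, hb⟩
    by_contra hcon
    push Not at hcon
    apply hno (vec K b₀ b)
    refine rk2_vec h0 hb fun s t hst => ?_
    have ht : t = 0 := by
      by_contra ht
      apply hcon (-(t⁻¹ * s))
      apply Subtype.ext
      change sc (-(t⁻¹ * s)) b₀ = b
      have h2 := congrArg (sc t⁻¹) hst
      rw [sc_add, sc_sc, sc_sc, inv_mul_cancel₀ ht, sc_one, sc_zero] at h2
      rw [sc_neg]
      exact (eq_neg_of_add_eq_zero_right h2).symm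
    refine ⟨?_, ht⟩
    rw [ht] at hst
    have h3 : sc (0 : K) b = 0 := by
      unfold sc
      rw [zero_smul, zero_smul]
    rw [h3, add_zero] at hst
    exact sc_ne hne hst

end

/-- elements of order three have no fixed vectors -/
def ThreeFree : Prop := ∀ (p : ℕ) [Fact p.Prime] (V : Type u) [AddCommGroup V] [Module (ZMod p) V] [Finite V]
  (G : Subgroup (V ≃ₗ[ZMod p] V)) (h : ℕ) (_ : ¬ p ∣ Nat.card G) (_ : Half G h) (_ : 2 ≤ h)
  (e : SL25 →* (V ≃ₗ[ZMod p] V)) (_ : Function.Injective e) (_ : ∀ x, e x ∈ G)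
  (_ : ∀ g ∈ G, ∀ x, ∃ y, g * e x * g⁻¹ = e y) (_ : FaithSub e.range),
  ∀ x, x * x * x = 1 → x ≠ 1 → ∀ v, e x v = v → v = 0

/-- **normal `SL(2,5)`** -/
theorem sl25_of (hT : ThreeFree.{u}) : SL5Row.{u} := by
  intro p _ V _ _ _ G h hp2 hh h2 hG hirr hhom S hSG hSn ⟨e⟩
  set l : SL25 →* (V ≃ₗ[ZMod p] V) := S.subtype.comp (e.symm : SL25 →* S) with hl
  have hlapp : ∀ x, l x = (e.symm x : V ≃ₗ[ZMod p] V) := fun _ => rfl
  have hinj : Function.Injective l := S.subtype_injective.comp e.symm.injective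
  have hrange : l.range = S := by
    ext g
    constructor
    · rintro ⟨x, rfl⟩; exact (e.symm x).2
    · intro hg
      exact ⟨e ⟨g, hg⟩, by rw [hlapp, MulEquiv.symm_apply_apply]⟩
  have hmem : ∀ x, l x ∈ G := fun x => hSG (e.symm x).2
  have hnorm : ∀ g ∈ G, ∀ x, ∃ y, g * l x * g⁻¹ = l y := by
    intro g hg x
    refine ⟨e ⟨g * l x * g⁻¹, hSn g hg _ (e.symm x).2⟩, ?_⟩
    rw [hlapp (e _), MulEquiv.symm_apply_apply]
  have hnt : Nontrivial V := by
    by_contra hcon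
    rw [not_nontrivial_iff_subsingleton] at hcon
    have h1 : l (-1) = l 1 := by
      ext v
      exact Subsingleton.elim _ _
    exact neg_one_ne (hinj h1)
  have hfs : FaithSub l.range := by
    rw [hrange]
    exact faithSub_of_homog (hhom S hSG hSn) hirr hSn
  obtain ⟨K, _, _, j, hQ⟩ := Cfsg.Agent.H432.HT.exists_setup (exists_ne (0 : V)) hG l hinj hmem hnorm hfs
    (hT p V G h hG hh h2 l hinj hmem hnorm hfs)
  by_cases hex : ∃ v : V, Rk2 K v
  · obtain ⟨v, hv⟩ := hex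
    exact (hQ.mult_two hG hh h2 hv).elim
  · push Not at hex
    exact hQ.mult_one hh h2 (card_of_no_rk2 hQ hex)

end Cfsg.Agent.H312.HT
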